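import Mathlib.LinearAlgebra.BilinearForm.Orthogonal
import Mathlib.LinearAlgebra.Dual.Defs
import Mathlib.LinearAlgebra.FreeModule.PID
import Mathlib.LinearAlgebra.Matrix.ToLinearEquiv
import Mathlib.LinearAlgebra.Matrix.Adjugate

/-!
Lattice helpers (helper5): for an anisotropic integral bilinear form on a finite free ℤ-module,
every functional on a submodule is, up to a fixed nonzero multiple, represented through the form.
-/

namespace Groth.Agent.Lib.Helper5

theorem exists_smul_repr {L : Type*} [AddCommGroup L] [Module.Finite ℤ L] [Module.Free ℤ L]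
    (B : LinearMap.BilinForm ℤ L) (hdef : ∀ x, B x x = 0 → x = 0) (A : Submodule ℤ L) :
    ∃ c : ℤ, c ≠ 0 ∧ ∀ ψ : Module.Dual ℤ A, ∃ z : A, ∀ a : A, B a z = c * ψ a := by
  classical
  obtain ⟨n, b⟩ := Module.basisOfFiniteTypeTorsionFree' (R := ℤ) (M := A)
  set a : Fin n → L := fun i => (b i : L) with ha
  set G : Matrix (Fin n) (Fin n) ℤ := fun i j => B (a i) (a j) with hG
  refine ⟨G.det, ?_, ?_⟩
  · intro hdet
    obtain ⟨v, hv0, hv⟩ := Matrix.exists_mulVec_eq_zero_iff.mpr hdet
    apply hv0
    set u : L := ∑ j, v j • a j with hu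
    have hBu : B u u = 0 := by
      have : B u u = ∑ i, v i * (G.mulVec v) i := by
        simp only [hu, map_sum, map_smul, LinearMap.sum_apply, LinearMap.smul_apply, smul_eq_mul,
          Matrix.mulVec, dotProduct, hG, Finset.mul_sum]
        rw [Finset.sum_comm]
        apply Finset.sum_congr rfl
        intro i _
        apply Finset.sum_congr rfl
        intro j _
        ring
      rw [this, hv]
      simp
    have hu0 : u = 0 := hdef u hBu
    have hsum : ∑ j, v j • b j = 0 := by
      apply Subtype.ext
      simpa [hu, ha] using hu0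
    have := (Fintype.linearIndependent_iff.mp b.linearIndependent) v hsum
    funext i
    exact this i
  · intro ψ
    set v : Fin n → ℤ := fun i => ψ (b i) with hv
    set w : Fin n → ℤ := G.adjugate.mulVec v with hw
    refine ⟨∑ j, w j • b j, ?_⟩
    have hgen : ∀ i, B (a i) ((∑ j, w j • b j : A) : L) = G.det * ψ (b i) := by
      intro i
      have h1 : B (a i) ((∑ j, w j • b j : A) : L) = (G.mulVec w) i := by
        simp [map_sum, Matrix.mulVec, dotProduct, hG, ha, mul_comm]
      have h2 : G.mulVec w = G.det • v := by
        rw [hw, Matrix.mulVec_mulVec, Matrix.mul_adjugate, Matrix.smul_mulVec, Matrix.one_mulVec]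
      rw [h1, h2]
      simp [hv]
    have hlin : (B.flip ((∑ j, w j • b j : A) : L)) ∘ₗ A.subtype = G.det • ψ := by
      apply b.ext
      intro i
      simpa [ha] using hgen i
    intro x
    have := congrArg (fun f => f x) hlin
    simpa using this

end Groth.Agent.Lib.Helper5
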